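import Mathlib
import Cfsg.Agent.Lib.Helper49.SAF.Iface

/-!
# SAF (S4025): package [GALT]

Transport of the semi-affine group along a ring isomorphism; the semi-affine group of a finite
field of order `p ^ n` is isomorphic to that of `GaloisField p n`.
-/

set_option autoImplicit false

namespace Cfsg.Agent.Lib.Helper10.SAF

/-- conjugation by a ring isomorphism maps the semi-affine group into the semi-affine group -/
theorem semiaffine_conj {R S : Type*} [Ring R] [Ring S] (τ : R ≃+* S) (s : Equiv.Perm R)
    (hs : s ∈ Cfsg.semiaffineGroup R) : τ.toEquiv.permCongr s ∈ Cfsg.semiaffineGroup S := by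
  obtain ⟨a, b, φ, h⟩ := hs
  refine ⟨Units.map (τ : R →* S) a, τ b, (τ.symm.trans φ).trans τ, fun y => ?_⟩
  simp [Equiv.permCongr_apply, h]

/-- a ring isomorphism induces an isomorphism of the semi-affine groups -/
theorem semiaffine_equiv {R S : Type*} [Ring R] [Ring S] (τ : R ≃+* S) :
    Nonempty (↥(Cfsg.semiaffineGroup R) ≃* ↥(Cfsg.semiaffineGroup S)) := by
  have hmap : (Cfsg.semiaffineGroup R).map (τ.toEquiv.permCongrHom : Equiv.Perm R →* Equiv.Perm S)
      = Cfsg.semiaffineGroup S := by
    apply le_antisymm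
    · rintro t ⟨s, hs, rfl⟩
      exact semiaffine_conj τ s hs
    · intro t ht
      refine ⟨τ.symm.toEquiv.permCongr t, semiaffine_conj τ.symm t ht, ?_⟩
      ext y
      simp [Equiv.permCongrHom, Equiv.permCongr_apply]
  exact ⟨(MulEquiv.subgroupMap τ.toEquiv.permCongrHom (Cfsg.semiaffineGroup R)).trans
    (MulEquiv.subgroupCongr hmap)⟩

/-- **[GALT]** -/
theorem pkgGalT {p n : ℕ} [Fact p.Prime] (F : Type) [Field F] [Fintype F]
    (h : Nat.card F = p ^ n) (hn : n ≠ 0) :
    Nonempty (↥(Cfsg.semiaffineGroup F) ≃* ↥(Cfsg.semiaffineGroup (GaloisField p n))) := by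
  let _ : Fintype (GaloisField p n) := Fintype.ofFinite _
  have hc : Fintype.card F = Fintype.card (GaloisField p n) := by
    rw [← Nat.card_eq_fintype_card, h, ← Nat.card_eq_fintype_card, GaloisField.card p n hn]
  exact semiaffine_equiv (FiniteField.ringEquivOfCardEq hc)

end Cfsg.Agent.Lib.Helper10.SAF
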